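import Cfsg.Agent.H861.PiS.BabyOrb
import Cfsg.Agent.H502.IF.BMoment

/-!
# S5719, Baby Monster: a subgroup of `2^{1+22}` of order at least `2^9` contains a 2A- or 2B-element (helper502)
-/

set_option autoImplicit false
set_option maxRecDepth 100000

namespace Cfsg.Agent.H502.IFB.Key

open Cfsg
open Cfsg.Agent.Monster Cfsg.Agent.Monster.VecEngine Cfsg.Agent.Monster.VecSpace
open Cfsg.Agent.Monster.PauliBasic Cfsg.Agent.Monster.PauliRep Cfsg.Agent.Monster.PauliClif Cfsg.Agent.Monster.PauliBits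
open Cfsg.Agent.BabyM Cfsg.Agent.BabyM.QAct Cfsg.Agent.BabyM.Model Cfsg.Agent.BabyM.Conc Cfsg.Agent.BabyM.KTab
open Cfsg.Agent.BabyM.KRow Cfsg.Agent.BabyM.KQ Cfsg.Agent.BabyM.KRowData Cfsg.Agent.BabyM.QIrrInst
open Cfsg.Agent.BabyU.Clos Cfsg.Agent.BabyU.ClosLaneTab Cfsg.Agent.BabyU.ClosLane
open Cfsg.Agent.KFacts.Baby.Inst (form_zero form_of form_one z'_eq)
open Cfsg.Agent.H861.PiS.BabyOrb Cfsg.Agent.H502.IFB.Moment

/-! ### The counts -/

/-- commuting with the base -/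
noncomputable def qa (x : ℕ) : Bool := Nat.beq (mulK x 0x75) (mulK 0x75 x)

/-- commuting with `z'` -/
noncomputable def qc (x : ℕ) : Bool := Nat.beq (mulK x 0x400) (mulK 0x400 x)

theorem c892 : cnt 12 (fun i => and (mX i) (qa (cd i))) 0 = 892 := by decide +kernel

theorem c1276 : cnt 12 (fun i => and (mX i) (qc (cd i))) 0 = 1276 := by decide +kernel

/-- each code commutes or anticommutes visibly with `z'` -/
noncomputable def q4 (x : ℕ) : Bool :=
  or (Nat.beq (mulK x 0x400) (mulK 0x400 x)) (Nat.beq (Nat.xor (mulK x 0x400) 0x400000) (mulK 0x400 x))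

theorem chk4 : allN 12 (fun i => Bool.rec (q4 (cd i)) true (Nat.beq (cd i) 0)) 0 = true := by decide +kernel

theorem form_fm (x y : Pauli 11) : Pauli.form x y = fm (ab x) (ab y) := rfl

theorem qa_iff {i : Lane U} (hi : Cd.isX i) : qa (cd i.1) = true ↔ fm (v (cd i.1)) (ab xa) = 0 := by
  have h1 : fm (v (cd i.1)) (ab xa) = Pauli.form (dec 11 (cd i.1)) xa := rfl
  rw [h1, ← Pauli.commute_iff]
  exact comm_iff_q hi

theorem qc_iff {i : Lane U} (hi : Cd.isX i) : qc (cd i.1) = true ↔ fm (v (cd i.1)) (ab xc) = 0 := by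
  have h1 : fm (v (cd i.1)) (ab xc) = Pauli.form (dec 11 (cd i.1)) xc := rfl
  rw [h1]
  constructor
  · intro h
    exact form_zero h
  · intro h
    have h1 := lane_spec chk4 hi
    unfold q4 at h1
    rw [Bool.or_eq_true] at h1
    rcases h1 with h1 | h1
    · exact h1
    · exact absurd h (form_one h1)

/-! ### The two sets -/

theorem fin_AA (q : ℕ → Bool) : (AA q).Finite := Set.toFinite _

/-- the classes of the transpositions -/
noncomputable def O₁ : Finset (VV 11) := (fin_AA fun _ => true).toFinset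

theorem mem_O₁ {p : VV 11} : p ∈ O₁ ↔ ∃ i : Lane U, Cd.isX i ∧ p = v (cd i.1) := by
  unfold O₁
  rw [Set.Finite.mem_toFinset]
  constructor
  · rintro ⟨i, hi, -, e⟩; exact ⟨i, hi, e⟩
  · rintro ⟨i, hi, e⟩; exact ⟨i, hi, rfl, e⟩

theorem card_O₁ : O₁.card = 2300 := by
  unfold O₁
  rw [← Set.ncard_eq_toFinset_card]
  exact (ncard_AA _).trans c2300

theorem mem_O₁' {p : VV 11} : p ∈ O₁ ↔ ∃ x : Pauli 11, x ∈ PP ∧ ab x = p := by
  rw [mem_O₁]
  constructor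
  · rintro ⟨i, hi, rfl⟩; exact ⟨dec 11 (cd i.1), ⟨i, hi, rfl⟩, rfl⟩
  · rintro ⟨x, ⟨i, hi, e⟩, rfl⟩; exact ⟨i, hi, e⟩

/-- the classes of the conjugates of `z`, as a set -/
def S₂ : Set (VV 11) := {p | ∃ c : Inst.M.C, ab (al c xc) = p}

/-- the classes of the conjugates of `z` -/
noncomputable def O₂ : Finset (VV 11) := (Set.toFinite S₂).toFinset

theorem mem_O₂ {p : VV 11} : p ∈ O₂ ↔ ∃ c : Inst.M.C, ab (al c xc) = p := by
  unfold O₂
  rw [Set.Finite.mem_toFinset]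
  rfl

theorem S₂_eq : (MulAction.orbit Inst.M.C (cl' xc) : Set X) = (S₂ : Set (VV 11)) := by
  ext p
  constructor
  · rintro ⟨c, hc⟩; exact ⟨c, (smul_cl c xc).symm.trans hc⟩
  · rintro ⟨c, hc⟩; exact ⟨c, (smul_cl c xc).trans hc⟩

theorem card_O₂ : O₂.card = 46575 := by
  unfold O₂
  rw [← Set.ncard_eq_toFinset_card]
  have h : (S₂ : Set X).ncard = 46575 := by rw [← S₂_eq]; exact ncard_orbit
  exact h

/-! ### Singular vectors -/

theorem sq_of {x : Pauli 11} (h : x * x = 1) : qf (ab x) = 0 := by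
  rw [Pauli.sq_eq] at h
  exact congrArg Pauli.s h

theorem R_sq {x : Pauli 11} (h : Cd.R x * Cd.R x = 1) : x * x = 1 := by
  apply Cd.R_injective
  rw [map_mul, h, map_one]

theorem conj_sq {g t : V ≃ₗ[ℚ] V} (h : t * t = 1) : (g * t * g⁻¹) * (g * t * g⁻¹) = 1 := by
  calc (g * t * g⁻¹) * (g * t * g⁻¹) = g * (t * t) * g⁻¹ := by group
    _ = 1 := by rw [h]; group

theorem q1O : ∀ w ∈ O₁, qf w = 0 := by
  intro w hw
  obtain ⟨x, hx, rfl⟩ := mem_O₁'.1 hw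
  obtain ⟨g, hg, e⟩ := mem_cls hx
  refine sq_of (R_sq ?_)
  rw [← e]
  exact conj_sq A.rep.t₀_sq

theorem al_xc (c : Inst.M.C) : Cd.R (al c xc) = (c * Inst.M.τ) * Inst.M.z * (c * Inst.M.τ)⁻¹ := by
  rw [← al_spec]
  show (c : V ≃ₗ[ℚ] V) * Cd.R (dec 11 0x400) * (c : V ≃ₗ[ℚ] V)⁻¹ = _
  rw [← z'_eq]
  group

theorem q2O : ∀ w ∈ O₂, qf w = 0 := by
  intro w hw
  obtain ⟨c, rfl⟩ := mem_O₂.1 hw
  refine sq_of (R_sq ?_)
  rw [al_xc]
  exact conj_sq A.grp.z_sq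

theorem z1O : (0 : VV 11) ∉ O₁ := by
  intro h
  obtain ⟨x, hx, e⟩ := mem_O₁'.1 h
  obtain ⟨i, hi, e'⟩ := hx
  exact hi.2 (e'.symm.trans e)

theorem xc_ne : ab xc ≠ 0 := by
  intro h
  have h1 : v 0x400 = v 0 := by
    have h2 : v 0x400 = v (0x400 ^^^ 0x400) := by
      rw [v_xor]
      have h3 : v 0x400 = 0 := h
      rw [h3, add_zero]
    rwa [Nat.xor_self] at h2
  exact absurd (v_inj (by norm_num) (by norm_num) h1) (by norm_num)

theorem ab_al_ne {c : Inst.M.C} {x : Pauli 11} (h : ab x ≠ 0) : ab (al c x) ≠ 0 := by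
  intro h1
  apply h
  have h2 : ab (al c x) = ab (al c 1) := by rw [h1, map_one]; rfl
  exact ab_of_aut (al c) h2

theorem z2O : (0 : VV 11) ∉ O₂ := by
  intro h
  obtain ⟨c, e⟩ := mem_O₂.1 h
  exact ab_al_ne xc_ne e

/-! ### The sums -/

theorem fm_al (c : Inst.M.C) (x y : Pauli 11) : fm (ab (al c x)) (ab (al c y)) = fm (ab x) (ab y) := by
  have h1 := comm_al (c := c) (x := x) (y := y)
  rw [Pauli.commute_iff, Pauli.commute_iff, form_fm, form_fm] at h1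
  rcases zmod2_cases (fm (ab x) (ab y)) with e | e
  · rw [e]; exact h1.2 e
  · rw [e]
    refine (zmod2_cases _).resolve_left fun h => ?_
    rw [h1.1 h] at e
    exact zero_ne_one e

theorem SS_al (c : Inst.M.C) (x : Pauli 11) : SS O₁ (ab (al c x)) = SS O₁ (ab x) := by
  unfold SS
  symm
  refine Finset.sum_bij (fun w _ => ab (al c (⟨0, w.1, w.2⟩ : Pauli 11))) ?_ ?_ ?_ ?_
  · intro w hw
    obtain ⟨y, hy, rfl⟩ := mem_O₁'.1 hw
    refine mem_O₁'.2 ⟨al c y, al_P c hy, ?_⟩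
    exact ab_aut_congr (al c) rfl
  · intro w _ w' _ e
    have h := ab_of_aut (al c) e
    exact h
  · intro w hw
    obtain ⟨y, hy, rfl⟩ := mem_O₁'.1 hw
    refine ⟨ab (al c⁻¹ y), mem_O₁'.2 ⟨al c⁻¹ y, al_P c⁻¹ hy, rfl⟩, ?_⟩
    have h1 : ab (al c (al c⁻¹ y)) = ab y := by rw [← al_mul, mul_inv_cancel, al_one]
    rw [← h1]
    exact ab_aut_congr (al c) rfl
  · intro w _
    have h1 := fm_al c (⟨0, w.1, w.2⟩ : Pauli 11) x
    rw [h1]
    rfl

theorem SS_card (O : Finset (VV 11)) (u : VV 11) : SS O u = 2 * (O.filter fun w => fm w u = 0).card - O.card := by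
  unfold SS
  have h1 : ∀ w ∈ O, sg ℤ (fm w u) = 2 * (if fm w u = 0 then 1 else 0) - 1 := by
    intro w _
    rcases zmod2_cases (fm w u) with e | e
    · rw [e, sg_zero, if_pos rfl]; norm_num
    · rw [e, sg_one, if_neg one_ne_zero]; norm_num
  rw [Finset.sum_congr rfl h1, Finset.sum_sub_distrib, ← Finset.mul_sum, Finset.sum_boole, Finset.sum_const,
    nsmul_eq_mul, mul_one]

theorem filter_card {u : VV 11} {q : ℕ → Bool} (h : ∀ i : Lane U, Cd.isX i → (q (cd i.1) = true ↔ fm (v (cd i.1)) u = 0)) :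
    (O₁.filter fun w => fm w u = 0).card = cnt 12 (fun i => and (mX i) (q (cd i))) 0 := by
  rw [← ncard_AA, ← Set.ncard_coe_finset]
  congr 1
  ext p
  rw [Finset.mem_coe, Finset.mem_filter, mem_O₁]
  constructor
  · rintro ⟨⟨i, hi, rfl⟩, e⟩
    exact ⟨i, hi, (h i hi).2 e, rfl⟩
  · rintro ⟨i, hi, e, rfl⟩
    exact ⟨⟨i, hi, rfl⟩, (h i hi).1 e⟩

theorem SS_xa : SS O₁ (ab xa) = -516 := by
  rw [SS_card, filter_card (fun i hi => qa_iff hi), c892, card_O₁]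
  norm_num

theorem SS_xc : SS O₁ (ab xc) = 252 := by
  rw [SS_card, filter_card (fun i hi => qc_iff hi), c1276, card_O₁]
  norm_num

theorem s1O : ∀ w ∈ O₁, SS O₁ w = -516 := by
  intro w hw
  obtain ⟨x, hx, rfl⟩ := mem_O₁'.1 hw
  obtain ⟨c, hc⟩ := trans_a hx
  rw [smul_cl, cl_eq] at hc
  rw [← hc, SS_al, SS_xa]

theorem s2O : ∀ w ∈ O₂, SS O₁ w = 252 := by
  intro w hw
  obtain ⟨c, rfl⟩ := mem_O₂.1 hw
  rw [SS_al, SS_xc]

/-- a totally singular subgroup of order divisible by `2^9` contains the class of a 2A- or 2B-element -/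
theorem exists_sing (W : AddSubgroup (VV 11)) (hW : ∀ u ∈ W, qf u = 0) (h9 : 2 ^ 9 ∣ Nat.card W) :
    ∃ u ∈ W, u ∈ O₁ ∨ u ∈ O₂ :=
  exists_mem card_O₁ card_O₂ q1O q2O z1O z2O s1O s2O W hW h9

end Cfsg.Agent.H502.IFB.Key
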