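import Cfsg.Agent.H502.IF.BKey

/-!
# S5719, Baby Monster: a subgroup of `2^{1+22}` of order divisible by `2^9` contains a 2A- or 2B-element (helper502)
-/

set_option autoImplicit false

namespace Cfsg.Agent.H502.IFB.Key

open Cfsg
open Cfsg.Agent.Monster Cfsg.Agent.Monster.VecEngine Cfsg.Agent.Monster.VecSpace
open Cfsg.Agent.Monster.PauliBasic Cfsg.Agent.Monster.PauliRep Cfsg.Agent.Monster.PauliClif Cfsg.Agent.Monster.PauliBits
open Cfsg.Agent.BabyM Cfsg.Agent.BabyM.QAct Cfsg.Agent.BabyM.Model Cfsg.Agent.BabyM.Conc Cfsg.Agent.BabyM.KTab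
open Cfsg.Agent.BabyM.KRow Cfsg.Agent.BabyM.KQ Cfsg.Agent.BabyM.KRowData Cfsg.Agent.BabyM.QIrrInst
open Cfsg.Agent.BabyU.Clos Cfsg.Agent.BabyU.ClosLaneTab Cfsg.Agent.BabyU.ClosLane
open Cfsg.Agent.H861.PiS.BabyOrb Cfsg.Agent.H502.IFB.Moment

/-- the class, as a homomorphism -/
def abH : Pauli 11 →* Multiplicative (VV 11) where
  toFun x := Multiplicative.ofAdd (ab x)
  map_one' := rfl
  map_mul' _ _ := rfl

theorem abH_eq (x : Pauli 11) : Multiplicative.toAdd (abH x) = ab x := rfl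

/-- in the Pauli group -/
theorem exists_pauli (F : Subgroup (Pauli 11)) (hz : Pauli.z 11 ∉ F) (h9 : 2 ^ 9 ∣ Nat.card F) :
    ∃ x ∈ F, ab x ∈ O₁ ∨ ab x ∈ O₂ := by
  let W : AddSubgroup (VV 11) := Subgroup.toAddSubgroup' (F.map abH)
  have hW : ∀ u, u ∈ W ↔ ∃ x ∈ F, ab x = u := by
    intro u
    constructor
    · rintro ⟨x, hx, e⟩; exact ⟨x, hx, congrArg Multiplicative.toAdd e⟩
    · rintro ⟨x, hx, e⟩; exact ⟨x, hx, congrArg Multiplicative.ofAdd e⟩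
  have hcard : Nat.card W = Nat.card F := by
    refine (Nat.card_congr (Equiv.ofBijective (fun x : F => (⟨ab (x : Pauli 11), (hW _).2 ⟨x, x.2, rfl⟩⟩ : W))
      ⟨fun x y h => ?_, fun u => ?_⟩)).symm
    · have h2 : ab (x : Pauli 11) = ab (y : Pauli 11) := congrArg Subtype.val h
      rcases (ab_eq_iff _ _).1 h2 with h3 | h3
      · exact Subtype.ext h3
      · refine absurd ?_ hz
        have h4 : Pauli.z 11 = x * (y : Pauli 11)⁻¹ := by rw [h3, mul_inv_cancel_right]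
        rw [h4]
        exact F.mul_mem x.2 (F.inv_mem y.2)
    · obtain ⟨x, hx, e⟩ := (hW u).1 u.2
      exact ⟨⟨x, hx⟩, Subtype.ext e⟩
  obtain ⟨u, hu, h⟩ := exists_sing W (by
    intro u hu
    obtain ⟨x, hx, rfl⟩ := (hW u).1 hu
    have h1 := F.mul_mem hx hx
    rw [Pauli.sq_eq] at h1
    refine (zmod2_cases _).resolve_right fun h2 => hz ?_
    have h3 : x.b ⬝ᵥ x.a = 1 := h2
    rw [h3] at h1
    exact h1) (by rw [hcard]; exact h9)
  obtain ⟨x, hx, rfl⟩ := (hW u).1 hu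
  exact ⟨x, hx, h⟩

/-- the elements over `O₁` are transpositions -/
theorem conj_t {x : Pauli 11} (h : ab x ∈ O₁) : ∃ g ∈ Inst.M.G, g * Inst.M.t₀ * g⁻¹ = Cd.R x := by
  obtain ⟨y, hy, e⟩ := mem_O₁'.1 h
  exact mem_cls (PP_of_ab e hy)

/-- the elements over `O₂` are conjugates of `z` -/
theorem conj_z {x : Pauli 11} (h : ab x ∈ O₂) : ∃ g ∈ Inst.M.G, g * Inst.M.z * g⁻¹ = Cd.R x := by
  obtain ⟨c, hc⟩ := mem_O₂.1 h
  have hcG : (c : V ≃ₗ[ℚ] V) * Inst.M.τ ∈ Inst.M.G := mul_mem (A.C_le_G c.2) A.τ_mem_G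
  rcases (ab_eq_iff x (al c xc)).1 hc.symm with h1 | h1
  · exact ⟨_, hcG, by rw [h1, al_xc]⟩
  · obtain ⟨q, hq⟩ := exists_form_eq_one (ab_al_ne (c := c) xc_ne)
    refine ⟨Cd.R q * (c * Inst.M.τ), mul_mem (A.C_le_G (A.grp.Q_le (R_mem_Q q))) hcG, ?_⟩
    have h2 : q * al c xc * q⁻¹ = x := by
      rw [Pauli.conj_eq, hq, h1, Pauli.z_mul]
    calc Cd.R q * (c * Inst.M.τ) * Inst.M.z * (Cd.R q * (c * Inst.M.τ))⁻¹
        = Cd.R q * ((c * Inst.M.τ) * Inst.M.z * (c * Inst.M.τ)⁻¹) * (Cd.R q)⁻¹ := by group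
      _ = Cd.R x := by rw [← al_xc, ← map_mul, ← map_inv, ← map_mul, h2]

/-- **A subgroup of `2^{1+22}` of order divisible by `2^9` contains a 2A- or a 2B-element.** -/
theorem key {F : Subgroup Inst.M.G} (hF : F ≤ Cfsg.Agent.BabyU.ClosModel.PP Inst.M) (h9 : 2 ^ 9 ∣ Nat.card F) :
    (∃ a ∈ F, IsConj (Cfsg.Agent.BabyU.ClosModel.tt Instance.all) a) ∨
      (∃ a ∈ F, IsConj (Cfsg.Agent.BabyU.ClosModel.zz Instance.all) a) := by
  let Φ : Pauli 11 →* Inst.M.G := Cd.R.codRestrict Inst.M.G (fun x => A.C_le_G (A.grp.Q_le (R_mem_Q x)))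
  have hΦ : ∀ x, ((Φ x : Inst.M.G) : V ≃ₗ[ℚ] V) = Cd.R x := fun x => rfl
  have hΦi : Function.Injective Φ := fun x y h => Cd.R_injective (congrArg Subtype.val h)
  have hΦs : F ≤ Φ.range := by
    intro f hf
    obtain ⟨y, hy⟩ := KLink.link.mem_Q.1 (Cfsg.Agent.BabyU.ClosModel.mem_PP.1 (hF hf))
    exact ⟨y, Subtype.ext hy⟩
  have hcard : Nat.card (F.comap Φ) = Nat.card F := by
    have h1 := Nat.card_congr ((F.comap Φ).equivMapOfInjective Φ hΦi).toEquiv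
    rw [Subgroup.map_comap_eq_self hΦs] at h1
    exact h1
  by_cases hz : Pauli.z 11 ∈ F.comap Φ
  · right
    refine ⟨Φ (Pauli.z 11), hz, ?_⟩
    have h1 : Φ (Pauli.z 11) = Cfsg.Agent.BabyU.ClosModel.zz Instance.all := Subtype.ext z_R.symm
    rw [h1]
  · obtain ⟨x, hx, h | h⟩ := exists_pauli _ hz (by rw [hcard]; exact h9)
    · left
      obtain ⟨g, hg, e⟩ := conj_t h
      exact ⟨Φ x, hx, isConj_iff.2 ⟨⟨g, hg⟩, Subtype.ext e⟩⟩
    · right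
      obtain ⟨g, hg, e⟩ := conj_z h
      exact ⟨Φ x, hx, isConj_iff.2 ⟨⟨g, hg⟩, Subtype.ext e⟩⟩

end Cfsg.Agent.H502.IFB.Key
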