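import Cfsg.Agent.H502.IF.BKeyG
import Cfsg.Agent.H999.IF.EngB
import Cfsg.Agent.H209.IF.Kill

/-!
# S5719, Baby Monster: `A` contains an involution of `2^{1+22}` (helper502)

Then `A` contains a 2A- or a 2B-element.
-/

set_option autoImplicit false

namespace Cfsg.Agent.H502.IFB.Q

open Cfsg Subgroup
open Cfsg.Agent.BabyM Cfsg.Agent.BabyM.Model Cfsg.Agent.BabyU.ClosModel Cfsg.Agent.H209.Fxy Cfsg.Agent.H999.IFB

/-- the conjugates of `v` under `H` lie in `S` -/
theorem relIndex_le {G : Type*} [Group G] [Finite G] (v : G) (H : Subgroup G) (S : Set G)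
    (h : ∀ g ∈ H, g * v * g⁻¹ ∈ S) : (centralizer ({v} : Set G)).relIndex H ≤ S.ncard := by
  rw [Subgroup.relIndex, Subgroup.index]
  let φ : (H ⧸ (centralizer ({v} : Set G)).subgroupOf H) → S := fun c =>
    Quotient.liftOn' c (fun b : H => (⟨(b : G) * v * (b : G)⁻¹, h b b.2⟩ : S)) (by
      intro b b' hbb
      rw [QuotientGroup.leftRel_apply, mem_subgroupOf, mem_centralizer_singleton_iff] at hbb
      apply Subtype.ext
      show (b : G) * v * (b : G)⁻¹ = (b' : G) * v * (b' : G)⁻¹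
      have h1 : (b : G)⁻¹ * (b' : G) * v = v * ((b : G)⁻¹ * (b' : G)) := hbb
      calc (b : G) * v * (b : G)⁻¹ = (b : G) * (v * ((b : G)⁻¹ * (b' : G))) * (b' : G)⁻¹ := by group
        _ = (b : G) * ((b : G)⁻¹ * (b' : G) * v) * (b' : G)⁻¹ := by rw [h1]
        _ = _ := by group)
  have hφ : Function.Injective φ := by
    intro c c' hcc
    induction c using QuotientGroup.induction_on with
    | H b =>
      induction c' using QuotientGroup.induction_on with
      | H b' =>
        have h3 : (b : G) * v * (b : G)⁻¹ = (b' : G) * v * (b' : G)⁻¹ := congrArg Subtype.val hcc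
        rw [QuotientGroup.eq, mem_subgroupOf, mem_centralizer_singleton_iff]
        show (b : G)⁻¹ * (b' : G) * v = v * ((b : G)⁻¹ * (b' : G))
        calc (b : G)⁻¹ * (b' : G) * v = (b : G)⁻¹ * ((b' : G) * v * (b' : G)⁻¹) * (b' : G) := by group
          _ = (b : G)⁻¹ * ((b : G) * v * (b : G)⁻¹) * (b' : G) := by rw [h3]
          _ = _ := by group
  exact (Nat.card_le_card_of_injective φ hφ).trans (Nat.card_coe_set_eq S).le

theorem card_inf {G : Type*} [Group G] (H K : Subgroup G) :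
    Nat.card (H ⊓ K : Subgroup G) * H.relIndex K = Nat.card K := by
  rw [← Nat.card_congr (subgroupOfEquivOfLe (inf_le_right : H ⊓ K ≤ K)).toEquiv, inf_subgroupOf_right]
  exact (H.subgroupOf K).card_mul_index

/-- the Baby Monster -/
local notation "𝔹" => (Inst.M.G : Subgroup _)

instance fin : Finite Inst.M.G := Instance.all.finite_G

theorem simp : IsSimpleGroup Inst.M.G := Instance.all.simple

theorem na : ∃ a b : Inst.M.G, a * b ≠ b * a := by
  obtain ⟨q, -, h⟩ := fuse Instance.all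
  refine ⟨q, tt Instance.all, fun e => ?_⟩
  rw [e, mul_inv_cancel_right] at h
  exact z_ne Instance.all (by rw [left_eq_mul] at h; exact h)

theorem card_G : Nat.card Inst.M.G = 4154781481226426191177580544000000 := by
  rw [Instance.all.card_G]

theorem card_PP : Nat.card (PP Inst.M) = 2 ^ 23 := by
  rw [← Instance.all.grp.Q_card]
  exact Nat.card_congr (Subgroup.subgroupOfEquivOfLe fun q hq => Instance.all.C_le_G (Instance.all.grp.Q_le hq)).toEquiv

theorem card_cent_z : Nat.card (centralizer ({zz Instance.all} : Set Inst.M.G)) = 2 ^ 23 * 42305421312000 := by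
  rw [Nat.card_congr (KFacts.Baby.Inst.eC Instance.all).toEquiv, Instance.all.grp.card_C]

/-- centralizers of elements of `Q` are large -/
theorem card_cent_ge {v : Inst.M.G} (hv : v ∈ PP Inst.M) : 42305421312000 ≤ Nat.card (centralizer ({v} : Set Inst.M.G)) := by
  have h1 := relIndex_le v (centralizer ({zz Instance.all} : Set Inst.M.G)) (PP Inst.M : Set Inst.M.G) (by
    intro g hg
    exact P_norm Instance.all g (mem_top g) (mem_centralizer_singleton_iff.1 hg) v hv)
  rw [show (PP Inst.M : Set Inst.M.G).ncard = 2 ^ 23 by rw [← card_PP]; rfl] at h1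
  have h2 := card_inf (centralizer ({v} : Set Inst.M.G)) (centralizer ({zz Instance.all} : Set Inst.M.G))
  rw [card_cent_z] at h2
  have h3 : Nat.card (centralizer ({v} : Set Inst.M.G) ⊓ centralizer ({zz Instance.all} : Set Inst.M.G) : Subgroup Inst.M.G) ≤
      Nat.card (centralizer ({v} : Set Inst.M.G)) := card_le_of_le inf_le_left
  refine le_trans ?_ h3
  by_contra hcon
  push Not at hcon
  have h4 : Nat.card (centralizer ({v} : Set Inst.M.G) ⊓ centralizer ({zz Instance.all} : Set Inst.M.G) : Subgroup Inst.M.G) *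
      (centralizer ({v} : Set Inst.M.G)).relIndex (centralizer ({zz Instance.all} : Set Inst.M.G)) ≤
      42305421311999 * 2 ^ 23 := Nat.mul_le_mul (by omega) h1
  rw [h2] at h4
  omega

theorem index_cent_le {v : Inst.M.G} (hv : v ∈ PP Inst.M) :
    (centralizer ({v} : Set Inst.M.G)).index ≤ 98209197601062912000 := by
  have h1 := card_cent_ge hv
  have h2 := (centralizer ({v} : Set Inst.M.G)).card_mul_index
  rw [card_G] at h2
  by_contra hcon
  push Not at hcon
  have h3 : 42305421312000 * 98209197601062912001 ≤ Nat.card (centralizer ({v} : Set Inst.M.G)) *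
      (centralizer ({v} : Set Inst.M.G)).index := Nat.mul_le_mul h1 hcon
  rw [h2] at h3
  norm_num at h3

/-- `C_Q(v)` has index at most two in `Q` -/
theorem card_cent_Q {v : Inst.M.G} (hv : v ∈ PP Inst.M) :
    2 ^ 22 ≤ Nat.card (centralizer ({v} : Set Inst.M.G) ⊓ PP Inst.M : Subgroup Inst.M.G) := by
  have h1 := relIndex_le v (PP Inst.M) {v, v * zz Instance.all} (by
    intro g hg
    rcases P_comm Instance.all g hg v hv with h | h
    · left; rw [h, mul_inv_cancel_right]
    · right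
      have h3 : g⁻¹ * zz Instance.all = zz Instance.all * g⁻¹ := zc Instance.all g⁻¹ ((PP Inst.M).inv_mem hg)
      show g * v * g⁻¹ = v * zz Instance.all
      rw [h, mul_assoc, ← h3, mul_assoc v g, mul_inv_cancel_left])
  have h2 : ({v, v * zz Instance.all} : Set Inst.M.G).ncard ≤ 2 := Set.ncard_insert_le _ _ |>.trans (by
    rw [Set.ncard_singleton])
  have h3 := card_inf (centralizer ({v} : Set Inst.M.G)) (PP Inst.M)
  rw [card_PP] at h3
  by_contra hcon
  push Not at hcon
  have h4 : Nat.card (centralizer ({v} : Set Inst.M.G) ⊓ PP Inst.M : Subgroup Inst.M.G) *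
      (centralizer ({v} : Set Inst.M.G)).relIndex (PP Inst.M) ≤ (2 ^ 22 - 1) * 2 :=
    Nat.mul_le_mul (by omega) (h1.trans h2)
  rw [h3] at h4
  omega

/-- **`A` contains an involution of `Q`** -/
theorem of_Q {A : Subgroup Inst.M.G} {Γ : Subgroup (MulAut Inst.M.G)} (h : IF A Γ) {v : Inst.M.G} (hv : v ∈ A)
    (h2 : orderOf v = 2) (hvQ : v ∈ PP Inst.M) :
    (∃ a ∈ A, IsConj (tt Instance.all) a) ∨ (∃ a ∈ A, IsConj (zz Instance.all) a) := by
  have hs := simp
  have hf : Fact (Nat.Prime 2) := ⟨Nat.prime_two⟩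
  let B : Subgroup Inst.M.G := centralizer ({v} : Set Inst.M.G) ⊓ PP Inst.M
  have h3 := ((IF.E2' h na hv h2).2.2.2.2 B inf_le_left).1
  have h4 := lt_of_lt_of_le h3 (index_cent_le hvQ)
  have hB : IsPGroup 2 B := (two Instance.all).to_le inf_le_right
  obtain ⟨a, ha⟩ := IsPGroup.iff_card.1 hB
  have h22 : 2 ^ 22 ≤ Nat.card B := card_cent_Q hvQ
  have h5 := card_inf A B
  obtain ⟨b, hb⟩ := IsPGroup.iff_card.1 (hB.to_le (inf_le_right : A ⊓ B ≤ B))
  have hb9 : 9 ≤ b := by
    by_contra hcon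
    push Not at hcon
    have h6 : Nat.card (A ⊓ B : Subgroup Inst.M.G) ≤ 2 ^ 8 := by
      rw [hb]; exact Nat.pow_le_pow_right (by norm_num) (by omega)
    have h7 : 2 ^ 14 ≤ A.relIndex B := by
      by_contra hc
      push Not at hc
      have h8 : Nat.card (A ⊓ B : Subgroup Inst.M.G) * A.relIndex B ≤ 2 ^ 8 * (2 ^ 14 - 1) :=
        Nat.mul_le_mul h6 (by omega)
      rw [h5] at h8
      omega
    have h9 : (2 ^ 14) ^ 5 ≤ A.relIndex B ^ 5 := Nat.pow_le_pow_left h7 5
    have h10 := lt_of_le_of_lt h9 h4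
    norm_num at h10
  have hd : 2 ^ 9 ∣ Nat.card (A ⊓ B : Subgroup Inst.M.G) := by
    rw [hb]; exact pow_dvd_pow 2 hb9
  rcases Key.key (F := A ⊓ B) (inf_le_right.trans inf_le_right) hd with ⟨x, hx, hc⟩ | ⟨x, hx, hc⟩
  · exact Or.inl ⟨x, (mem_inf.1 hx).1, hc⟩
  · exact Or.inr ⟨x, (mem_inf.1 hx).1, hc⟩

/-- **`A` contains an involution conjugate into `Q`** -/
theorem of_conj_Q {A : Subgroup Inst.M.G} {Γ : Subgroup (MulAut Inst.M.G)} (h : IF A Γ) {v : Inst.M.G} (hv : v ∈ A)
    (h2 : orderOf v = 2) (g : Inst.M.G) (hvQ : g * v * g⁻¹ ∈ PP Inst.M) :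
    (∃ a ∈ A, IsConj (tt Instance.all) a) ∨ (∃ a ∈ A, IsConj (zz Instance.all) a) := by
  have key : ∀ {y : Inst.M.G}, (∃ a ∈ A.map (MulAut.conj g).toMonoidHom, IsConj y a) → ∃ a ∈ A, IsConj y a := by
    rintro y ⟨_, ⟨a, ha, rfl⟩, hc⟩
    refine ⟨a, ha, hc.trans (isConj_iff.2 ⟨g⁻¹, ?_⟩)⟩
    show g⁻¹ * (g * a * g⁻¹) * g⁻¹⁻¹ = a
    group
  have h3 : orderOf (g * v * g⁻¹) = 2 := by
    rw [← h2]
    exact orderOf_injective (MulAut.conj g).toMonoidHom (MulAut.conj g).injective v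
  exact (of_Q (Cfsg.Agent.H209.Fxy.IF.map h (MulAut.conj g)) (v := g * v * g⁻¹) ⟨v, hv, rfl⟩ h3 hvQ).imp key key

/-- `A` meets a conjugate of `Q` -/
theorem of_mem {A : Subgroup Inst.M.G} {Γ : Subgroup (MulAut Inst.M.G)} (h : IF A Γ) {v : Inst.M.G} (hv : v ∈ A)
    (h1 : v ≠ 1) (g : Inst.M.G) (hvQ : g * v * g⁻¹ ∈ PP Inst.M) :
    (∃ a ∈ A, IsConj (tt Instance.all) a) ∨ (∃ a ∈ A, IsConj (zz Instance.all) a) := by
  have hf : Fact (Nat.Prime 2) := ⟨Nat.prime_two⟩
  obtain ⟨k, hk⟩ := (IsPGroup.iff_orderOf.1 (two Instance.all)) ⟨g * v * g⁻¹, hvQ⟩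
  have hk' : orderOf v = 2 ^ k := by
    rw [← hk, ← orderOf_injective (PP Inst.M).subtype (PP Inst.M).subtype_injective ⟨g * v * g⁻¹, hvQ⟩]
    exact (orderOf_injective (MulAut.conj g).toMonoidHom (MulAut.conj g).injective v).symm
  have hk0 : k ≠ 0 := by
    rintro rfl
    rw [pow_zero, orderOf_eq_one_iff] at hk'
    exact h1 hk'
  obtain ⟨j, rfl⟩ := Nat.exists_eq_succ_of_ne_zero hk0
  have h3 : orderOf (v ^ 2 ^ j) = 2 := by
    rw [orderOf_pow_of_dvd (by positivity) (by rw [hk']; exact pow_dvd_pow 2 (Nat.le_succ j)), hk', Nat.succ_eq_add_one,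
      pow_succ, Nat.mul_div_cancel_left _ (by positivity)]
  refine of_conj_Q h (A.pow_mem hv _) h3 g ?_
  rw [← conj_pow]
  exact (PP Inst.M).pow_mem hvQ _

end Cfsg.Agent.H502.IFB.Q
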